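import Cfsg.Agent.H845.K547F.Gen

/-!
# S4547, `q` even: `β`-fixed characters of type `{a, b}`, `β` interchanging the nodes `a`, `b` (helper845, task QE14)

* `cusp_node_comp` : the twist of a cuspidal character of a node;
* `ocs_pair` : `β² = 1` on `M_a`, `σ` interchanges `a` and `b`, orthogonal: `M_(a,b)` has a cuspidal `OS` character.
-/

set_option autoImplicit false
set_option linter.unusedSectionVars false

open scoped ComplexConjugate
open Cfsg

namespace Cfsg.Agent.H845.K547F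

open Cfsg.Agent.OddOrderCharacters.Clifford Cfsg.Agent.Characters Cfsg.Agent.H601.K4 Cfsg.Agent.H967.K4
  Cfsg.Agent.H821.K547 Cfsg.Agent.H307.QE
open CoxeterSystem Cfsg.Agent.ChevalleyStructure.CoxeterGeom Cfsg.Agent.Tits.Roots Cfsg.Agent.Tits.Core
  Cfsg.Agent.Tits.Exchange Cfsg.Agent.Nodes.Reps Cfsg.Agent.Nodes.BNOf Cfsg.Agent.Nodes.StabComb
  Cfsg.Agent.Nodes.Bruhat Cfsg.Agent.Nodes.OppDec Cfsg.Agent.Nodes.LeviDec Cfsg.Agent.H53.HC
  Cfsg.Agent.H246.Dl Cfsg.Agent.KFacts.RgdAut Cfsg.Agent.KFacts.RgdDiag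

universe u

section gen

variable {Y : Type u} [Group Y]

/-- an automorphism mapping `H` onto `H'` -/
def mEq (β : MulAut Y) {H H' : Subgroup Y} (hH : ∀ x, β x ∈ H' ↔ x ∈ H) : H ≃* H' where
  toFun x := ⟨β x, (hH x).2 x.2⟩
  invFun x := ⟨β⁻¹ x, by rw [← hH, MulAut.apply_inv_self]; exact x.2⟩
  left_inv x := Subtype.ext (MulAut.inv_apply_self _ β (x : Y))
  right_inv x := Subtype.ext (MulAut.apply_inv_self _ β (x : Y))
  map_mul' x y := Subtype.ext (map_mul β (x : Y) y)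

end gen

section rgd

variable {I W : Type*} {Y : Type u} [Fintype I] [DecidableEq I] [Group W] [Group Y] {M : CoxeterMatrix I}
  {cs : CoxeterSystem M W} {A : I → I → ℤ} {h : IsCartan M A} {T : Subgroup Y} {n : I → Y}
  {X : (I → ℤ) → Subgroup Y}

theorem rad_singleton (i : I) : rad cs h X {i} i = X (sr i) := by
  rw [← UJ_singleton (cs := cs) (h := h) (X := X) i]
  apply le_antisymm (rad_le_UJ _ _)
  refine RGD.Sup_mono fun x hx => ⟨hx, ?_⟩
  obtain ⟨j, hj, hj0⟩ := exists_ne_zero (PosJ_subset {i} hx)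
  rw [Set.mem_singleton_iff] at hj
  subst hj
  exact lt_of_le_of_ne (hx.2.1 j) (Ne.symm hj0)

theorem mem_MJ_iff [Finite W] [Finite Y] (R : RGD cs h 2 T n X) (hG : GG cs h T X = ⊤) {β : MulAut Y}
    {σ : Equiv.Perm I} (hN : Nrm R β σ) (K : Set I) (x : Y) : β x ∈ MJ cs h X (σ '' K) ↔ x ∈ MJ cs h X K := by
  constructor
  · intro hx
    have h1 := mem_MJ_of_mem R (hN.inv hG).diag hx
    have h2 : (σ⁻¹ : Equiv.Perm I) '' (σ '' K) = K := by
      rw [← Set.image_comp]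
      simp
    rwa [h2, MulAut.inv_apply_self] at h1
  · exact fun hx => mem_MJ_of_mem R hN.diag hx

/-- the twist of a cuspidal character of a node -/
theorem cusp_node_comp [Finite W] [Finite Y] (R : RGD cs h 2 T n X) {β : MulAut Y} {σ : Equiv.Perm I}
    (hN : Nrm R β σ) {a b : I} (hba : σ b = a) (hM : ∀ x, β x ∈ MJ cs h X {a} ↔ x ∈ MJ cs h X {b})
    {θ : ↥(MJ cs h X {a}) → ℂ} (hθ : Cusp cs h X {a} θ) : Cusp cs h X {b} (θ ∘ mEq β hM) where
  irr := Core.isIrr_comp (mEq β hM).toMonoidHom (mEq β hM).surjective hθ.irr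
  cen := by
    intro z hz m
    rw [Function.comp_apply, Function.comp_apply, map_mul]
    refine hθ.cen _ ?_ _
    rw [Subgroup.mem_center_iff] at hz ⊢
    intro g
    obtain ⟨g, rfl⟩ := (mEq β hM).surjective g
    rw [← map_mul, ← map_mul, hz]
  van := by
    intro i hi hf
    rw [Set.mem_singleton_iff] at hi
    subst hi
    have hr : ∀ x, β x ∈ rad cs h X {a} a ↔ x ∈ rad cs h X {i} i := by
      intro x
      rw [rad_singleton, rad_singleton, ← hba]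
      exact hN.diag.pos i x
    have : Fintype (rad cs h X {a} a) := Fintype.ofFinite _
    rw [← hθ.van a rfl]
    exact Fintype.sum_equiv (mEq β hr).toEquiv _ _ fun u => rfl

/-- **A cuspidal `OS` character of `M_(a,b)`.** -/
theorem ocs_pair [Finite W] [Finite Y] (R : RGD cs h 2 T n X) (hG : GG cs h T X = ⊤) {β : MulAut Y}
    {σ : Equiv.Perm I} (hN : Nrm R β σ) {a b : I} (hab : σ a = b) (hba : σ b = a) (hne : a ≠ b) (hA : A a b = 0)
    (hA' : A b a = 0) (hoc : OC cs h X {a}) (hβ : ∀ x ∈ MJ cs h X {a}, β (β x) = x) (hK : σ '' ({a} ∪ {b}) = {a} ∪ {b}) :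
    OCS R hG hN hK := by
  obtain ⟨θ, h1, h2, h3⟩ := hoc
  have ho : Orth A ({a} : Set I) {b} := by
    rintro i rfl j rfl
    exact ⟨hne, hA, hA'⟩
  have hM : ∀ x, β x ∈ MJ cs h X {a} ↔ x ∈ MJ cs h X {b} := by
    intro x
    have := mem_MJ_iff R hG hN {b} x
    rwa [Set.image_singleton, hba] at this
  have hM' : ∀ x, β x ∈ MJ cs h X {b} ↔ x ∈ MJ cs h X {a} := by
    intro x
    have := mem_MJ_iff R hG hN {a} x
    rwa [Set.image_singleton, hab] at this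
  have h1' := cusp_node_comp R hN hba hM h1
  obtain ⟨ψ, hψ, hv⟩ := h1.exists_prod R ho h1'
  have hcomm := ho.comm R
  have hdec : ∀ y ∈ MJ cs h X ({a} ∪ {b}), ∃ x ∈ MJ cs h X {a}, ∃ z ∈ MJ cs h X {b}, y = x * z := by
    intro y hy
    rw [ho.MJ_union] at hy
    refine mem_sup _ _ (fun z hz => mem_normalizer_of_comm fun x hx => hcomm x hx z hz) hy
  have hone : ψ 1 = θ 1 * θ 1 := by
    obtain ⟨hab, e⟩ := hv 1 (one_mem _) 1 (one_mem _)
    have e1 : (⟨1 * 1, hab⟩ : ↥(MJ cs h X ({a} ∪ {b}))) = 1 := Subtype.ext (mul_one 1)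
    rw [e1] at e
    rw [e, Function.comp_apply]
    have e2 : mEq β hM ⟨1, one_mem _⟩ = 1 := Subtype.ext (map_one β)
    rw [e2]
    rfl
  refine ⟨ψ, hψ, ⟨⟨hψ.irr, ?_⟩, ?_, ?_⟩⟩
  · obtain ⟨c, -, hc⟩ := Core.isIrr_apply_one h1.irr
    have e1 : charDegree θ = c := by rw [charDegree, hc]; simp
    have e3 : charDegree ψ = c * c := by
      rw [charDegree, hone, hc, ← Nat.cast_mul, Complex.natCast_re, Nat.floor_natCast]
    rw [e3]
    rw [e1] at h2
    exact fun h4 => (Nat.prime_two.dvd_mul.1 h4).elim h2 h2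
  · obtain ⟨c, hc⟩ := exists_cube Y
    refine SF.of_pow (hc.subgroup _) fun y => ?_
    obtain ⟨x, hx, z, hz, e⟩ := hdec y y.2
    obtain ⟨hab, e1⟩ := hv x hx z hz
    obtain ⟨hab', e2⟩ := hv (x ^ c) (pow_mem hx c) (z ^ c) (pow_mem hz c)
    have hy1 : y = ⟨x * z, hab⟩ := Subtype.ext e
    have hy2 : y ^ c = ⟨x ^ c * z ^ c, hab'⟩ := by
      apply Subtype.ext
      have h6 : Commute x z := hcomm x hx z hz
      rw [Subgroup.coe_pow, e, h6.mul_pow]
    rw [hy2, hy1, e1, e2]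
    have e3 : θ ⟨x ^ c, pow_mem hx c⟩ = θ ⟨x, hx⟩ := h3.apply_pow (hc.subgroup _) ⟨x, hx⟩
    have e4 : (θ ∘ mEq β hM) ⟨z ^ c, pow_mem hz c⟩ = (θ ∘ mEq β hM) ⟨z, hz⟩ :=
      (h3.comp (mEq β hM).toMonoidHom).apply_pow (hc.subgroup _) ⟨z, hz⟩
    rw [e3, e4]
  · rintro ⟨y, hy⟩
    obtain ⟨x, hx, z, hz, rfl⟩ := hdec y hy
    obtain ⟨hab, e1⟩ := hv x hx z hz
    obtain ⟨hab', e2⟩ := hv (β z) ((hM z).2 hz) (β x) ((hM' x).2 hx)
    have e3 : rAut β (hN.fixMJ hG hK) ⟨x * z, hy⟩ = ⟨β z * β x, hab'⟩ := by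
      apply Subtype.ext
      rw [rAut_coe]
      change β (x * z) = β z * β x
      rw [map_mul, hcomm _ ((hM z).2 hz) _ ((hM' x).2 hx)]
    rw [e3, e2, e1, Function.comp_apply, Function.comp_apply]
    have e4 : mEq β hM ⟨β x, (hM' x).2 hx⟩ = ⟨x, hx⟩ := Subtype.ext (hβ x hx)
    rw [e4]
    have e5 : mEq β hM ⟨z, hz⟩ = ⟨β z, (hM z).2 hz⟩ := rfl
    rw [e5]
    ring

end rgd

end Cfsg.Agent.H845.K547F
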