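import Cfsg.Agent.H845.K547F.Gen
import Cfsg.Agent.KFacts.RgdField

/-!
# S4547, `q` even: characters of the torus of a group with coordinates (helper845, task QE14)

* `cU C i` : the scalars of the simple root `α_i`, `T →* Fˣ`;
* `mu C θ v` : the character `t ↦ ∏ θ(α_i(t)) ^ v_i` of `T`;
* `mu_rp` : the action of the Weyl group;
* `mu_beta` : the action of a frame automorphism.
-/

set_option autoImplicit false
set_option linter.unusedSectionVars false

open scoped ComplexConjugate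
open Cfsg

namespace Cfsg.Agent.H845.K547F

open Cfsg.Agent.H307.QE
open CoxeterSystem Cfsg.Agent.ChevalleyStructure.CoxeterGeom Cfsg.Agent.Tits.Roots Cfsg.Agent.Tits.Core
  Cfsg.Agent.Tits.Exchange Cfsg.Agent.Nodes.Reps Cfsg.Agent.Nodes.BNOf Cfsg.Agent.Nodes.StabComb
  Cfsg.Agent.Nodes.Bruhat Cfsg.Agent.Nodes.OppDec Cfsg.Agent.Nodes.LeviDec Cfsg.Agent.H53.HC
  Cfsg.Agent.KFacts.RgdAut Cfsg.Agent.KFacts.RgdDiag Cfsg.Agent.KFacts.RgdField

universe u

variable {I W : Type*} {Y : Type u} [Fintype I] [DecidableEq I] [Group W] [Group Y] {M : CoxeterMatrix I}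
  {cs : CoxeterSystem M W} {A : I → I → ℤ} {h : IsCartan M A} {T : Subgroup Y} {n : I → Y}
  {X : (I → ℤ) → Subgroup Y} {F : Type*} [Field F] {x : (I → ℤ) → F → Y} {χ : (I → ℤ) → Y → F}

/-- the scalars of a root -/
noncomputable def cR (C : Coords cs h T n X x χ) {r : I → ℤ} (hr : IsRoot cs h r) : ↥T →* Fˣ :=
  MonoidHom.mk' (fun t => Units.mk0 (χ r t) ((C.coord r hr).chi_ne_zero t.2)) (by
    intro s t
    apply Units.ext
    exact (C.coord r hr).chi_mul s.2 t.2)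

theorem coe_cR (C : Coords cs h T n X x χ) {r : I → ℤ} (hr : IsRoot cs h r) (t : T) :
    ((cR C hr t : Fˣ) : F) = χ r t := rfl

/-- the scalars of the simple root `α_i` -/
noncomputable def cU (C : Coords cs h T n X x χ) (i : I) : ↥T →* Fˣ := cR C (isRoot_sr cs h i)

theorem coe_cU (C : Coords cs h T n X x χ) (i : I) (t : T) : ((cU C i t : Fˣ) : F) = χ (sr i) t := rfl

/-- the character of `T` with exponents `v` -/
noncomputable def mu (C : Coords cs h T n X x χ) (θ : Fˣ →* ℂˣ) (v : I → ℤ) : ↥T →* ℂˣ :=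
  MonoidHom.mk' (fun t => ∏ i, θ (cU C i t) ^ v i) (by
    intro s t
    simp only [map_mul, mul_zpow, Finset.prod_mul_distrib])

theorem mu_apply (C : Coords cs h T n X x χ) (θ : Fˣ →* ℂˣ) (v : I → ℤ) (t : T) :
    mu C θ v t = ∏ i, θ (cU C i t) ^ v i := rfl

/-- additivity in the exponents -/
noncomputable def muA (C : Coords cs h T n X x χ) (θ : Fˣ →* ℂˣ) (t : T) : (I → ℤ) →+ Additive ℂˣ :=
  AddMonoidHom.mk' (fun v => Additive.ofMul (mu C θ v t)) (by
    intro v w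
    rw [← ofMul_mul]
    congr 1
    simp only [mu_apply, Pi.add_apply, zpow_add, Finset.prod_mul_distrib])

theorem muA_apply (C : Coords cs h T n X x χ) (θ : Fˣ →* ℂˣ) (t : T) (v : I → ℤ) :
    muA C θ t v = Additive.ofMul (mu C θ v t) := rfl

theorem mu_add (C : Coords cs h T n X x χ) (θ : Fˣ →* ℂˣ) (v w : I → ℤ) (t : T) :
    mu C θ (v + w) t = mu C θ v t * mu C θ w t := by
  have h1 := map_add (muA C θ t) v w
  simp only [muA_apply, ← ofMul_mul] at h1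
  exact Additive.ofMul.injective h1

theorem mu_three {θ : Fˣ →* ℂˣ} (hθ : ∀ a, θ a ^ 3 = 1) (C : Coords cs h T n X x χ) (v w : I → ℤ)
    (hvw : ∀ i, (3 : ℤ) ∣ v i - w i) (t : T) : mu C θ v t = mu C θ w t := by
  rw [mu_apply, mu_apply]
  refine Finset.prod_congr rfl fun i _ => ?_
  obtain ⟨c, hc⟩ := hvw i
  have e : v i = w i + 3 * c := by omega
  rw [e, zpow_add, zpow_mul, show (θ (cU C i t)) ^ (3 : ℤ) = 1 from hθ _, one_zpow, mul_one]

/-- the product formula for all roots -/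
def ProdF (cs : CoxeterSystem M W) (h : IsCartan M A) (T : Subgroup Y) (χ : (I → ℤ) → Y → F) : Prop :=
  ∀ r, IsRoot cs h r → ∀ t ∈ T, χ r t = ∏ i, χ (sr i) t ^ r i

theorem theta_root (C : Coords cs h T n X x χ) (hp : ProdF cs h T χ) (θ : Fˣ →* ℂˣ) {r : I → ℤ}
    (hr : IsRoot cs h r) (t : T) : θ (cR C hr t) = mu C θ r t := by
  have h1 : cR C hr t = ∏ i, cU C i t ^ r i := by
    apply Units.ext
    rw [coe_cR, hp r hr t t.2, Units.coe_prod]
    refine Finset.prod_congr rfl fun i _ => ?_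
    rw [Units.val_zpow_eq_zpow_val, coe_cU]
  rw [h1, map_prod, mu_apply]
  exact Finset.prod_congr rfl fun i _ => map_zpow _ _ _

/-- **The action of the Weyl group.** -/
theorem mu_rp {p : ℕ} (R : RGD cs h p T n X) (C : Coords cs h T n X x χ) (hp : ProdF cs h T χ) (θ : Fˣ →* ℂˣ) {w : W}
    {g : Y} (hg : Rp cs R.nsys w g) (v : I → ℤ) {t : Y} (ht : t ∈ T) (ht' : g⁻¹ * t * g ∈ T) :
    mu C θ v ⟨g⁻¹ * t * g, ht'⟩ = mu C θ (rep cs h w v) ⟨t, ht⟩ := by
  have h1 : ∀ i, θ (cU C i ⟨g⁻¹ * t * g, ht'⟩) = mu C θ (rep cs h w (sr i)) ⟨t, ht⟩ := by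
    intro i
    rw [← theta_root C hp θ ((isRoot_sr cs h i).act w)]
    congr 1
    apply Units.ext
    rw [coe_cU, coe_cR]
    have h2 := C.chi_rp R.nsys hg (isRoot_sr cs h i) ht'
    have e : g * (g⁻¹ * t * g) * g⁻¹ = t := by group
    rw [e] at h2
    exact h2.symm
  have h3 : muA C θ ⟨t, ht⟩ (rep cs h w v) = ∑ i, v i • muA C θ ⟨t, ht⟩ (rep cs h w (sr i)) := by
    conv_lhs => rw [Cfsg.Agent.H53.HC.eq_sum_sr v]
    rw [map_sum, map_sum]
    refine Finset.sum_congr rfl fun i _ => ?_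
    rw [map_zsmul, map_zsmul]
  rw [mu_apply, Finset.prod_congr rfl fun i _ => by rw [h1 i]]
  apply Additive.ofMul.injective
  rw [ofMul_prod, ← muA_apply, h3]
  rfl

theorem mu_rp' {p : ℕ} (R : RGD cs h p T n X) (C : Coords cs h T n X x χ) (hp : ProdF cs h T χ) (θ : Fˣ →* ℂˣ) {w : W}
    {g : Y} (hg : Rp cs R.nsys w g) (v : I → ℤ) {t : Y} (ht : t ∈ T) (ht' : g * t * g⁻¹ ∈ T) :
    mu C θ v ⟨g * t * g⁻¹, ht'⟩ = mu C θ (rep cs h w⁻¹ v) ⟨t, ht⟩ := by
  have e : g⁻¹⁻¹ * t * g⁻¹ = g * t * g⁻¹ := by rw [inv_inv]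
  have h1 := mu_rp R C hp θ hg.inv v ht (by rw [e]; exact ht')
  rw [← h1]
  congr 1
  exact Subtype.ext e.symm

/-- **The action of a frame automorphism.** -/
theorem mu_beta (C : Coords cs h T n X x χ) (θ : Fˣ →* ℂˣ) {β : MulAut Y} {σ : Equiv.Perm I} (hT : Fix β T)
    {hσ : ∀ i j, M (σ i) (σ j) = M i j} {τ : I → F ≃+* F} (S : Semi cs h T X x χ β σ hσ τ) {m : I → ℤ}
    (hm : ∀ i a, θ (Units.mapEquiv (τ i).toMulEquiv a) = θ a ^ m i) (v : I → ℤ) {t : Y} (ht : t ∈ T) :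
    mu C θ v ⟨β t, (hT t).2 ht⟩ = mu C θ (fun i => m i * v (σ i)) ⟨t, ht⟩ := by
  rw [mu_apply, mu_apply, ← Equiv.prod_comp σ]
  refine Finset.prod_congr rfl fun i _ => ?_
  have e : cU C (σ i) ⟨β t, (hT t).2 ht⟩ = Units.mapEquiv (τ i).toMulEquiv (cU C i ⟨t, ht⟩) := by
    apply Units.ext
    exact S.char i t ht
  rw [e, hm, ← zpow_mul]

end Cfsg.Agent.H845.K547F
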