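import Cfsg.Agent.H845.K547F.Cus
import Cfsg.Agent.H845.K547F.Tor
import Cfsg.Agent.H151.K547.ExtRgd
import Cfsg.Agent.KFacts.F4Aut
import Cfsg.Agent.PRankPar.Inst

/-!
# S4547: `F₄(q)`, `q` even, the automorphisms interchanging the root lengths (helper845, task QE14)

* `Q`, `Q_rep` : the invariant quadratic form of the root lattice; it is anisotropic modulo 3 on `⟨α₁, α₂⟩`;
* `gInv3_even` : `|F|` a square: the series of `α₀ + α₃` modulo 3 and `P_{1,2}`;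
* `gInv3_odd` : `|F|` not a square: type `{0, 3}` and `P_{1,2}`;
* `gInv3_swap`, `D3_F4`.
-/

set_option autoImplicit false
set_option linter.unusedSectionVars false

open scoped ComplexConjugate
open Cfsg

namespace Cfsg.Agent.H845.K547F

open Cfsg.Agent.H307.QE Cfsg.Agent.H821.K547 Cfsg.Agent.H967.K4
open CoxeterSystem Cfsg.Agent.ChevalleyStructure.CoxeterGeom Cfsg.Agent.Tits.Roots Cfsg.Agent.Tits.Core
  Cfsg.Agent.Tits.Exchange Cfsg.Agent.Nodes.Reps Cfsg.Agent.Nodes.BNOf Cfsg.Agent.Nodes.StabComb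
  Cfsg.Agent.Nodes.Bruhat Cfsg.Agent.Nodes.OppDec Cfsg.Agent.Nodes.LeviDec Cfsg.Agent.H53.HC
  Cfsg.Agent.KFacts.RgdAut Cfsg.Agent.KFacts.RgdDiag Cfsg.Agent.KFacts.RgdField
open Cfsg.Agent.PRankPar.CardW (AF4)

universe u

section form

/-- the quadratic form -/
def Q (v : Fin 4 → ℤ) : ℤ :=
  v 0 ^ 2 + v 1 ^ 2 + 2 * v 2 ^ 2 + 2 * v 3 ^ 2 - v 0 * v 1 - 2 * v 1 * v 2 - 2 * v 2 * v 3

variable {W : Type*} [Group W] {M : CoxeterMatrix (Fin 4)} {cs : CoxeterSystem M W} {A : Fin 4 → Fin 4 → ℤ}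
  {h : IsCartan M A}

theorem Q_simple (hA : A = AF4) (i : Fin 4) (v : Fin 4 → ℤ) : Q (rep cs h (cs.simple i) v) = Q v := by
  rw [rep_simple_eq]
  subst hA
  have hp : pairing AF4 i v = AF4 i 0 * v 0 + AF4 i 1 * v 1 + AF4 i 2 * v 2 + AF4 i 3 * v 3 := by
    rw [pairing, Fin.sum_univ_four]
  rw [hp]
  unfold Q
  simp only [Pi.sub_apply, Pi.smul_apply, smul_eq_mul]
  fin_cases i
  · have e0 : (sr 0 : Fin 4 → ℤ) 0 = 1 := rfl
    have e1 : (sr 0 : Fin 4 → ℤ) 1 = 0 := rfl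
    have e2 : (sr 0 : Fin 4 → ℤ) 2 = 0 := rfl
    have e3 : (sr 0 : Fin 4 → ℤ) 3 = 0 := rfl
    simp only [Fin.zero_eta, e0, e1, e2, e3, AF4, Matrix.cons_val_zero, Matrix.cons_val_one, Matrix.cons_val]
    ring
  · have e0 : (sr 1 : Fin 4 → ℤ) 0 = 0 := rfl
    have e1 : (sr 1 : Fin 4 → ℤ) 1 = 1 := rfl
    have e2 : (sr 1 : Fin 4 → ℤ) 2 = 0 := rfl
    have e3 : (sr 1 : Fin 4 → ℤ) 3 = 0 := rfl
    simp only [Fin.mk_one, e0, e1, e2, e3, AF4, Matrix.cons_val_zero, Matrix.cons_val_one, Matrix.cons_val]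
    ring
  · have e0 : (sr 2 : Fin 4 → ℤ) 0 = 0 := rfl
    have e1 : (sr 2 : Fin 4 → ℤ) 1 = 0 := rfl
    have e2 : (sr 2 : Fin 4 → ℤ) 2 = 1 := rfl
    have e3 : (sr 2 : Fin 4 → ℤ) 3 = 0 := rfl
    simp only [Fin.reduceFinMk, e0, e1, e2, e3, AF4, Matrix.cons_val_zero, Matrix.cons_val_one, Matrix.cons_val]
    ring
  · have e0 : (sr 3 : Fin 4 → ℤ) 0 = 0 := rfl
    have e1 : (sr 3 : Fin 4 → ℤ) 1 = 0 := rfl
    have e2 : (sr 3 : Fin 4 → ℤ) 2 = 0 := rfl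
    have e3 : (sr 3 : Fin 4 → ℤ) 3 = 1 := rfl
    simp only [Fin.reduceFinMk, e0, e1, e2, e3, AF4, Matrix.cons_val_zero, Matrix.cons_val_one, Matrix.cons_val]
    ring

theorem Q_rep (hA : A = AF4) (w : W) (v : Fin 4 → ℤ) : Q (rep cs h w v) = Q v := by
  induction w using cs.simple_induction_left with
  | one => rw [map_one, Module.End.one_apply]
  | mul_simple_left w i ih => rw [rep_mul_apply, Q_simple hA, ih]

/-- anisotropy modulo 3 -/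
theorem aniso {v : Fin 4 → ℤ} (hQ : (3 : ℤ) ∣ Q v) (h0 : (3 : ℤ) ∣ v 0) (h3 : (3 : ℤ) ∣ v 3) : ∀ i, (3 : ℤ) ∣ v i := by
  obtain ⟨a, ha⟩ := h0
  obtain ⟨b, hb⟩ := h3
  have h1 : (3 : ℤ) ∣ v 1 ^ 2 + 2 * v 2 ^ 2 - 2 * v 1 * v 2 := by
    have e : v 1 ^ 2 + 2 * v 2 ^ 2 - 2 * v 1 * v 2 = Q v - 3 * (3 * a ^ 2 + 6 * b ^ 2 - a * v 1 - 2 * v 2 * b) := by
      unfold Q
      rw [ha, hb]
      ring
    rw [e]
    exact dvd_sub hQ (dvd_mul_right _ _)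
  have key : ∀ x y : ZMod 3, x ^ 2 + 2 * y ^ 2 - 2 * x * y = 0 → x = 0 ∧ y = 0 := by decide
  have h2 := key (v 1 : ZMod 3) (v 2 : ZMod 3) (by
    have := (ZMod.intCast_zmod_eq_zero_iff_dvd _ 3).2 h1
    push_cast at this
    exact this)
  intro i
  fin_cases i
  · exact ⟨a, ha⟩
  · exact (ZMod.intCast_zmod_eq_zero_iff_dvd _ 3).1 h2.1
  · exact (ZMod.intCast_zmod_eq_zero_iff_dvd _ 3).1 h2.2
  · exact ⟨b, hb⟩

/-- a conjugate of `α₀ + α₃` is nontrivial modulo 3 in the coordinates 0 or 3 -/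
theorem exists_coord (hA : A = AF4) (w : W) :
    ¬ ((3 : ℤ) ∣ (rep cs h w (sr 0 + sr 3)) 0 ∧ (3 : ℤ) ∣ (rep cs h w (sr 0 + sr 3)) 3) := by
  rintro ⟨h0, h3⟩
  have hQ : (3 : ℤ) ∣ Q (rep cs h w (sr 0 + sr 3)) := by
    rw [Q_rep hA]
    exact ⟨1, by decide⟩
  have h1 := aniso hQ h0 h3
  choose c hc using h1
  have h2 : rep cs h w (sr 0 + sr 3) = (3 : ℤ) • c := by
    funext i
    rw [hc i]
    rfl
  have h4 : (sr 0 + sr 3 : Fin 4 → ℤ) = (3 : ℤ) • rep cs h w⁻¹ c := by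
    rw [← map_zsmul, ← h2, rep_inv_apply]
  have h5 := congrFun h4 0
  have e : (sr 0 + sr 3 : Fin 4 → ℤ) 0 = 1 := rfl
  rw [e, Pi.smul_apply, smul_eq_mul] at h5
  omega

end form

section theta

/-- a character of order three -/
theorem exists_theta {F : Type*} [Field F] [Finite F] (h3 : 3 ∣ Nat.card F - 1) :
    ∃ θ : Fˣ →* ℂˣ, (∀ a, θ a ^ 3 = 1) ∧ ∃ u, θ u ≠ 1 := by
  classical
  have : Fintype F := Fintype.ofFinite F
  rw [Nat.card_eq_fintype_card] at h3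
  obtain ⟨χ, hχ⟩ := MulChar.exists_mulChar_orderOf F h3 (Complex.isPrimitiveRoot_exp 3 (by norm_num))
  refine ⟨χ.toUnitHom, fun a => ?_, ?_⟩
  · have h1 : χ ^ 3 = 1 := by rw [← hχ]; exact pow_orderOf_eq_one χ
    apply Units.ext
    rw [Units.val_pow_eq_pow_val, MulChar.coe_toUnitHom, ← MulChar.pow_apply_coe, h1, MulChar.one_apply_coe,
      Units.val_one]
  · by_contra hcon
    push Not at hcon
    have h1 : χ = 1 := by
      ext a
      rw [MulChar.one_apply_coe, ← MulChar.coe_toUnitHom, hcon a, Units.val_one]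
    rw [h1, orderOf_one] at hχ
    omega

/-- the effect of a field automorphism -/
theorem exists_exp {F : Type*} [Field F] [Finite F] (τ : F ≃+* F) {θ : Fˣ →* ℂˣ} (hθ : ∀ a, θ a ^ 3 = 1) {u : Fˣ}
    (hu : θ u ≠ 1) : ∃ m : ℤ, ¬ (3 : ℤ) ∣ m ∧ ∀ a, θ (Units.mapEquiv τ.toMulEquiv a) = θ a ^ m := by
  obtain ⟨m, hm⟩ := MonoidHom.map_cyclic (Units.mapEquiv τ.toMulEquiv).toMonoidHom
  have hm' : ∀ a, θ (Units.mapEquiv τ.toMulEquiv a) = θ a ^ m := by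
    intro a
    have h1 : Units.mapEquiv τ.toMulEquiv a = a ^ m := hm a
    rw [h1, map_zpow]
  refine ⟨m, ?_, hm'⟩
  rintro ⟨c, rfl⟩
  obtain ⟨b, hb⟩ := (Units.mapEquiv τ.toMulEquiv).surjective u
  apply hu
  rw [← hb, hm', zpow_mul]
  have h1 : θ b ^ (3 : ℤ) = 1 := hθ b
  rw [h1, one_zpow]

theorem zpow_ne {x : ℂˣ} (h3 : x ^ 3 = 1) (hx : x ≠ 1) {m : ℤ} (hm : ¬ (3 : ℤ) ∣ m) : x ^ m ≠ 1 := by
  intro h1
  have h2 : (orderOf x : ℤ) ∣ m := orderOf_dvd_iff_zpow_eq_one.2 h1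
  have h4 : orderOf x ∣ 3 := orderOf_dvd_of_pow_eq_one h3
  rcases (Nat.dvd_prime Nat.prime_three).1 h4 with h5 | h5
  · exact hx (orderOf_eq_one_iff.1 h5)
  · rw [h5] at h2
    exact hm h2

end theta

section abs

variable {W : Type*} {Y : Type u} [Group W] [Group Y] {cs : CoxeterSystem CoxeterMatrix.F₄ W}
  {A : Fin 4 → Fin 4 → ℤ} {h : IsCartan CoxeterMatrix.F₄ A} {T : Subgroup Y} {n : Fin 4 → Y}
  {X : (Fin 4 → ℤ) → Subgroup Y} {F : Type*} [Field F] {x : (Fin 4 → ℤ) → F → Y} {χ : (Fin 4 → ℤ) → Y → F}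
  {hh : Fin 4 → F → Y}

/-- the kernel of two simple roots -/
noncomputable def ZZ (C : Coords cs h T n X x χ) : Subgroup Y :=
  ((cU C 1).ker ⊓ (cU C 2).ker).map T.subtype

theorem mem_ZZ (C : Coords cs h T n X x χ) {z : Y} :
    z ∈ ZZ C ↔ ∃ hz : z ∈ T, cU C 1 ⟨z, hz⟩ = 1 ∧ cU C 2 ⟨z, hz⟩ = 1 := by
  constructor
  · rintro ⟨t, ht, rfl⟩
    exact ⟨t.2, ht.1, ht.2⟩
  · rintro ⟨hz, h1, h2⟩
    exact ⟨⟨z, hz⟩, ⟨h1, h2⟩, rfl⟩

theorem ZZ_le (C : Coords cs h T n X x χ) : ZZ C ≤ T := fun _ hz => ((mem_ZZ C).1 hz).1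

theorem ZZ_comm (C : Coords cs h T n X x χ) (hp : ProdF cs h T χ) {z : Y} (hz : z ∈ ZZ C) {m : Y}
    (hm : m ∈ MJ cs h X {1, 2}) : z * m = m * z := by
  obtain ⟨hzT, h1, h2⟩ := (mem_ZZ C).1 hz
  have h1' : χ (sr 1) z = 1 := congrArg Units.val h1
  have h2' : χ (sr 2) z = 1 := congrArg Units.val h2
  have hle : MJ cs h X {1, 2} ≤ Subgroup.centralizer ({z} : Set Y) := by
    refine RGD.Sup_le fun r hr v hv => ?_
    rw [Subgroup.mem_centralizer_singleton_iff]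
    obtain ⟨a, rfl⟩ := ((C.coord r hr.1).mem v).1 hv
    have h3 : χ r z = 1 := by
      have r0 : r 0 = 0 := hr.2 0 (by decide)
      have r3 : r 3 = 0 := hr.2 3 (by decide)
      rw [hp r hr.1 z hzT, Fin.prod_univ_four, h1', h2', r0, r3]
      simp
    have h4 := (C.coord r hr.1).act z hzT a
    rw [h3, one_mul] at h4
    exact (mul_inv_eq_iff_eq_mul.1 h4).symm
  exact ((Subgroup.mem_centralizer_singleton_iff).1 (hle hm)).symm

variable (R : RGD cs h 2 T n X) {β : MulAut Y} {σ : Equiv.Perm (Fin 4)}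

include R

theorem ZZ_fix [Finite W] (C : Coords cs h T n X x χ) (hN : Nrm R β σ)
    (hσ : σ 0 = 3 ∧ σ 1 = 2 ∧ σ 2 = 1 ∧ σ 3 = 0) : Fix β (ZZ C) := by
  obtain ⟨τ, S⟩ := exists_semi R C hN.diag hN.sym
  obtain ⟨-, s1, s2, -⟩ := hσ
  have key : ∀ i, ∀ (t : Y) (ht : t ∈ T), cU C (σ i) ⟨β t, (hN.fixT t).2 ht⟩ = 1 ↔ cU C i ⟨t, ht⟩ = 1 := by
    intro i t ht
    rw [Units.ext_iff, Units.ext_iff, coe_cU, coe_cU, Units.val_one, S.char i t ht]
    exact map_eq_one_iff (τ i) (τ i).injective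
  intro z
  rw [mem_ZZ, mem_ZZ]
  constructor
  · rintro ⟨hz, h1, h2⟩
    have hz' := (hN.fixT z).1 hz
    have k1 := key 1 z hz'
    have k2 := key 2 z hz'
    rw [s1] at k1
    rw [s2] at k2
    exact ⟨hz', k1.1 h2, k2.1 h1⟩
  · rintro ⟨hz, h1, h2⟩
    have k1 := key 1 z hz
    have k2 := key 2 z hz
    rw [s1] at k1
    rw [s2] at k2
    exact ⟨(hN.fixT z).2 hz, k2.2 h2, k1.2 h1⟩

/-- **`|F|` a square.** -/
theorem gInv3_even [Finite W] [Finite Y] [Finite F] [CharP F 2] (hG : GG cs h T X = ⊤) (hC : H601.OddDeg.TwoC Y)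
    (C : Coords cs h T n X x χ) (H : Coroots A T X χ hh) (hA : A = AF4) (hp : ProdF cs h T χ)
    (hTc : ∀ s ∈ T, ∀ t ∈ T, s * t = t * s) (hex : ∀ u : Fin 4 → Fˣ, ∃ t ∈ T, ∀ i, χ (sr i) t = u i)
    (hN : Nrm R β σ) (hσ : σ 0 = 3 ∧ σ 1 = 2 ∧ σ 2 = 1 ∧ σ 3 = 0) (h3 : 3 ∣ Nat.card F - 1) : GInv3 β := by
  obtain ⟨τ, S⟩ := exists_semi R C hN.diag hN.sym
  obtain ⟨s0, s1, s2, s3⟩ := hσ
  have t01 : τ 0 = τ 1 := S.eq_of_adj H h.diag hN.diag (i := 0) (j := 1) (by rw [hA]; rfl) (by rw [s1, s0, hA]; rfl)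
  have t23 : τ 2 = τ 3 := S.eq_of_adj H h.diag hN.diag (i := 2) (j := 3) (by rw [hA]; rfl) (by rw [s3, s2, hA]; rfl)
  have t12 : ∀ a : F, a ≠ 0 → τ 1 a = τ 2 a ^ 2 := by
    intro a ha
    have e := S.zpow_eq H h.diag hN.diag 1 2 ha
    rw [s1, s2, hA] at e
    have a1 : (2 : ℤ) * AF4 2 1 = -((2 : ℕ) : ℤ) := rfl
    have a2 : (2 : ℤ) * AF4 1 2 = -((4 : ℕ) : ℤ) := rfl
    rw [a1, a2, zpow_neg, zpow_neg, inv_inj, zpow_natCast, zpow_natCast] at e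
    have h2 : (2 : F) = 0 := CharTwo.two_eq_zero
    have h5 : (τ 1 a - τ 2 a ^ 2) ^ 2 = 0 := by
      have : (τ 1 a - τ 2 a ^ 2) ^ 2 = τ 1 a ^ 2 - τ 2 a ^ 4 + 2 * (τ 2 a ^ 4 - τ 1 a * τ 2 a ^ 2) := by ring
      rw [this, e, h2]
      ring
    exact sub_eq_zero.1 (pow_eq_zero_iff two_ne_zero |>.1 h5)
  obtain ⟨θ, hθ, u, hu⟩ := exists_theta h3
  obtain ⟨m, hm3, hm⟩ := exists_exp (τ 2) hθ hu
  have hm1 : ∀ a, θ (Units.mapEquiv (τ 1).toMulEquiv a) = θ a ^ (2 * m) := by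
    intro a
    have e : Units.mapEquiv (τ 1).toMulEquiv a = (Units.mapEquiv (τ 2).toMulEquiv a) ^ 2 := by
      apply Units.ext
      exact t12 a a.ne_zero
    rw [e, map_pow, hm, ← zpow_natCast, ← zpow_mul, mul_comm m]
    rfl
  let mm : Fin 4 → ℤ := ![2 * m, 2 * m, m, m]
  have hmm : ∀ i a, θ (Units.mapEquiv (τ i).toMulEquiv a) = θ a ^ mm i := by
    intro i a
    fin_cases i
    · change θ (Units.mapEquiv (τ 0).toMulEquiv a) = θ a ^ (2 * m)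
      rw [t01]; exact hm1 a
    · exact hm1 a
    · exact hm a
    · change θ (Units.mapEquiv (τ 3).toMulEquiv a) = θ a ^ m
      rw [← t23]; exact hm a
  -- the simple reflection
  obtain ⟨j, hj⟩ : ∃ j : Fin 4, ∀ i, (3 : ℤ) ∣ mm i * (sr 0 + sr 3 : Fin 4 → ℤ) (σ i) -
      (rep cs h (cs.simple j) (sr 0 + sr 3)) i := by
    have p0 : pairing A 0 (sr 0 + sr 3) = 2 := by rw [hA]; decide
    have p3 : pairing A 3 (sr 0 + sr 3) = 2 := by rw [hA]; decide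
    have hmod : m % 3 = 1 ∨ m % 3 = 2 := by omega
    rcases hmod with hmod | hmod
    · refine ⟨0, fun i => ?_⟩
      rw [rep_simple_eq, p0]
      fin_cases i
      · change (3 : ℤ) ∣ 2 * m * (sr 0 + sr 3 : Fin 4 → ℤ) (σ 0) - (sr 0 + sr 3 - (2 : ℤ) • sr 0 : Fin 4 → ℤ) 0
        rw [s0]
        have e1 : (sr 0 + sr 3 : Fin 4 → ℤ) 3 = 1 := rfl
        have e2 : (sr 0 + sr 3 - (2 : ℤ) • sr 0 : Fin 4 → ℤ) 0 = -1 := rfl
        rw [e1, e2]; omega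
      · change (3 : ℤ) ∣ 2 * m * (sr 0 + sr 3 : Fin 4 → ℤ) (σ 1) - (sr 0 + sr 3 - (2 : ℤ) • sr 0 : Fin 4 → ℤ) 1
        rw [s1]
        have e1 : (sr 0 + sr 3 : Fin 4 → ℤ) 2 = 0 := rfl
        have e2 : (sr 0 + sr 3 - (2 : ℤ) • sr 0 : Fin 4 → ℤ) 1 = 0 := rfl
        rw [e1, e2]; omega
      · change (3 : ℤ) ∣ m * (sr 0 + sr 3 : Fin 4 → ℤ) (σ 2) - (sr 0 + sr 3 - (2 : ℤ) • sr 0 : Fin 4 → ℤ) 2
        rw [s2]
        have e1 : (sr 0 + sr 3 : Fin 4 → ℤ) 1 = 0 := rfl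
        have e2 : (sr 0 + sr 3 - (2 : ℤ) • sr 0 : Fin 4 → ℤ) 2 = 0 := rfl
        rw [e1, e2]; omega
      · change (3 : ℤ) ∣ m * (sr 0 + sr 3 : Fin 4 → ℤ) (σ 3) - (sr 0 + sr 3 - (2 : ℤ) • sr 0 : Fin 4 → ℤ) 3
        rw [s3]
        have e1 : (sr 0 + sr 3 : Fin 4 → ℤ) 0 = 1 := rfl
        have e2 : (sr 0 + sr 3 - (2 : ℤ) • sr 0 : Fin 4 → ℤ) 3 = 1 := rfl
        rw [e1, e2]; omega
    · refine ⟨3, fun i => ?_⟩
      rw [rep_simple_eq, p3]
      fin_cases i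
      · change (3 : ℤ) ∣ 2 * m * (sr 0 + sr 3 : Fin 4 → ℤ) (σ 0) - (sr 0 + sr 3 - (2 : ℤ) • sr 3 : Fin 4 → ℤ) 0
        rw [s0]
        have e1 : (sr 0 + sr 3 : Fin 4 → ℤ) 3 = 1 := rfl
        have e2 : (sr 0 + sr 3 - (2 : ℤ) • sr 3 : Fin 4 → ℤ) 0 = 1 := rfl
        rw [e1, e2]; omega
      · change (3 : ℤ) ∣ 2 * m * (sr 0 + sr 3 : Fin 4 → ℤ) (σ 1) - (sr 0 + sr 3 - (2 : ℤ) • sr 3 : Fin 4 → ℤ) 1
        rw [s1]
        have e1 : (sr 0 + sr 3 : Fin 4 → ℤ) 2 = 0 := rfl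
        have e2 : (sr 0 + sr 3 - (2 : ℤ) • sr 3 : Fin 4 → ℤ) 1 = 0 := rfl
        rw [e1, e2]; omega
      · change (3 : ℤ) ∣ m * (sr 0 + sr 3 : Fin 4 → ℤ) (σ 2) - (sr 0 + sr 3 - (2 : ℤ) • sr 3 : Fin 4 → ℤ) 2
        rw [s2]
        have e1 : (sr 0 + sr 3 : Fin 4 → ℤ) 1 = 0 := rfl
        have e2 : (sr 0 + sr 3 - (2 : ℤ) • sr 3 : Fin 4 → ℤ) 2 = 0 := rfl
        rw [e1, e2]; omega
      · change (3 : ℤ) ∣ m * (sr 0 + sr 3 : Fin 4 → ℤ) (σ 3) - (sr 0 + sr 3 - (2 : ℤ) • sr 3 : Fin 4 → ℤ) 3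
        rw [s3]
        have e1 : (sr 0 + sr 3 : Fin 4 → ℤ) 0 = 1 := rfl
        have e2 : (sr 0 + sr 3 - (2 : ℤ) • sr 3 : Fin 4 → ℤ) 3 = -1 := rfl
        rw [e1, e2]; omega
  have hjT : ∀ t ∈ T, (n j)⁻¹ * t * n j ∈ T := by
    intro t ht
    have := conj_T R (rp_simple cs R.nsys j).inv ht
    rwa [inv_inv] at this
  obtain ⟨χ₁, χ₂, h1, h2, h11, h21, h12⟩ := exists_two_of_series R hG hN (K := {1, 2}) (i := 1) (by
      rw [Set.image_pair, s1, s2, Set.pair_comm]) (Or.inl rfl) (Z := ZZ C) (ZZ_le C)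
    (ZZ_fix R C hN ⟨s0, s1, s2, s3⟩) (fun z hz t ht => hTc z (ZZ_le C hz) t ht) (fun z hz m hm => ZZ_comm C hp hz hm)
    (μ := mu C θ (sr 0 + sr 3)) (by
      intro w g hg
      rcases not_and_or.1 (exists_coord (cs := cs) (h := h) hA w⁻¹) with hc | hc
      · obtain ⟨t, ht, htt⟩ := hex (fun i => if i = 0 then u else 1)
        refine ⟨t, (mem_ZZ C).2 ⟨ht, Units.ext (htt 1), Units.ext (htt 2)⟩, ?_⟩
        rw [mu_rp' R C hp θ hg _ ht, mu_apply, Fin.prod_univ_four]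
        have c0 : cU C 0 ⟨t, ht⟩ = u := Units.ext (htt 0)
        have c1 : cU C 1 ⟨t, ht⟩ = 1 := Units.ext (htt 1)
        have c2 : cU C 2 ⟨t, ht⟩ = 1 := Units.ext (htt 2)
        have c3 : cU C 3 ⟨t, ht⟩ = 1 := Units.ext (htt 3)
        rw [c0, c1, c2, c3, map_one, one_zpow, one_zpow, one_zpow, mul_one, mul_one, mul_one]
        exact zpow_ne (hθ u) hu hc
      · obtain ⟨t, ht, htt⟩ := hex (fun i => if i = 3 then u else 1)
        refine ⟨t, (mem_ZZ C).2 ⟨ht, Units.ext (htt 1), Units.ext (htt 2)⟩, ?_⟩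
        rw [mu_rp' R C hp θ hg _ ht, mu_apply, Fin.prod_univ_four]
        have c0 : cU C 0 ⟨t, ht⟩ = 1 := Units.ext (htt 0)
        have c1 : cU C 1 ⟨t, ht⟩ = 1 := Units.ext (htt 1)
        have c2 : cU C 2 ⟨t, ht⟩ = 1 := Units.ext (htt 2)
        have c3 : cU C 3 ⟨t, ht⟩ = u := Units.ext (htt 3)
        rw [c0, c1, c2, c3, map_one, one_zpow, one_zpow, one_zpow, one_mul, one_mul, one_mul]
        exact zpow_ne (hθ u) hu hc)
    (rp_simple cs R.nsys j) hjT (fun t ht => by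
      rw [mu_beta C θ hN.fixT S hmm _ ht, mu_rp R C hp θ (rp_simple cs R.nsys j) _ ht]
      exact mu_three hθ C _ _ hj _)
  exact GInv3.of_os hC (one_os β) h1 h2 (Ne.symm h11) (Ne.symm h21) h12

end abs

section odd

/-- automorphisms of 2-power order of a field of nonsquare order `2 ^ f` -/
theorem ringAut_eq_one {F : Type*} [Field F] [Finite F] [CharP F 2] (h3 : ¬ 3 ∣ Nat.card F - 1) {ρ : RingAut F} {k : ℕ}
    (hk : ρ ^ 2 ^ k = 1) : ρ = 1 := by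
  letI : Algebra (ZMod 2) F := ZMod.algebra F 2
  have : Fact (Nat.Prime 2) := ⟨Nat.prime_two⟩
  have hodd : Odd (Module.finrank (ZMod 2) F) := by
    rw [← Nat.not_even_iff_odd]
    rintro ⟨m, hm⟩
    apply h3
    have h1 : Nat.card F = 2 ^ Module.finrank (ZMod 2) F := by
      rw [Module.natCard_eq_pow_finrank (K := ZMod 2), Nat.card_zmod]
    rw [h1, hm, ← two_mul, pow_mul]
    have h2 := Nat.sub_dvd_pow_sub_pow (2 ^ 2) 1 m
    rwa [one_pow] at h2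
  have hcom : ∀ (σ : RingAut F) (r : ZMod 2), σ (algebraMap (ZMod 2) F r) = algebraMap (ZMod 2) F r := by
    intro σ r
    exact DFunLike.congr_fun (Subsingleton.elim ((σ : F →+* F).comp (algebraMap (ZMod 2) F)) (algebraMap (ZMod 2) F)) r
  let e : RingAut F →* (F ≃ₐ[ZMod 2] F) :=
    { toFun := fun σ => AlgEquiv.ofRingEquiv (f := σ) (hcom σ)
      map_one' := by ext a; rfl
      map_mul' := fun a b => by ext c; rfl }
  have he : Function.Injective e := by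
    intro a b hab
    ext c
    exact DFunLike.congr_fun hab c
  apply he
  rw [map_one]
  have h4 : (e ρ) ^ 2 ^ k = 1 := by rw [← map_pow, hk, map_one]
  have h5 : orderOf (e ρ) ∣ Module.finrank (ZMod 2) F := by
    rw [← IsGalois.card_aut_eq_finrank]
    exact orderOf_dvd_natCard _
  have h6 : (2 ^ k).Coprime (Module.finrank (ZMod 2) F) := Nat.Coprime.pow_left _ (Nat.coprime_two_left.2 hodd)
  exact orderOf_eq_one_iff.1 (Nat.dvd_one.1 (h6 ▸ Nat.dvd_gcd (orderOf_dvd_of_pow_eq_one h4) h5))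

theorem eq_one_of_two_pow {F : Type*} [Field F] [CharP F 2] {c : F} {k : ℕ} (hc : c ^ 2 ^ k = 1) : c = 1 := by
  have h1 : (c - 1) ^ 2 ^ k = 0 := by
    have : Fact (Nat.Prime 2) := ⟨Nat.prime_two⟩
    rw [sub_pow_char_pow, hc, one_pow, sub_self]
  exact sub_eq_zero.1 (pow_eq_zero_iff (by positivity) |>.1 h1)

/-- **An automorphism of 2-power order preserving the root group and the torus.** -/
theorem fix_of_coord {Y : Type*} [Group Y] {F : Type*} [Field F] [Finite F] [CharP F 2] {T P : Subgroup Y} {x : F → Y}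
    {χ : Y → F} (C : Coord T P x χ) (h3 : ¬ 3 ∣ Nat.card F - 1) {γ : MulAut Y} {k : ℕ} (hk : γ ^ 2 ^ k = 1)
    (hT : Fix γ T) (hP : ∀ y, γ y ∈ P ↔ y ∈ P) {y : Y} (hy : y ∈ P) : γ y = y := by
  obtain ⟨ρ, c, hc, hx, hch⟩ := C.exists_semi C hT hP
  let ρ' : RingAut F := ρ
  have h1 : ∀ m : ℕ, ∀ t ∈ T, (ρ' ^ m) (χ t) = χ ((γ ^ m) t) := by
    intro m
    induction m with
    | zero => intro t _; rfl
    | succ m ih =>
      intro t ht
      rw [pow_succ, pow_succ, MulAut.mul_apply]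
      change (ρ' ^ m) (ρ (χ t)) = _
      rw [← hch t ht]
      exact ih _ ((hT t).2 ht)
  have h2 : ρ' ^ 2 ^ k = 1 := by
    refine C.ext (τ := (ρ' ^ 2 ^ k : RingAut F)) (τ' := (1 : RingAut F)) fun t ht => ?_
    rw [h1 _ t ht, hk]
    rfl
  have h4 : ρ' = 1 := ringAut_eq_one h3 h2
  have h5 : ∀ a, γ (x a) = x (c * a) := by
    intro a
    rw [hx a]
    have : ρ a = a := DFunLike.congr_fun h4 a
    rw [this]
  have h6 : ∀ m : ℕ, (γ ^ m) (x 1) = x (c ^ m) := by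
    intro m
    induction m with
    | zero => rw [pow_zero, pow_zero]; rfl
    | succ m ih => rw [pow_succ', MulAut.mul_apply, ih, h5, pow_succ']
  have h7 : c = 1 := by
    refine eq_one_of_two_pow (k := k) ?_
    have h8 := h6 (2 ^ k)
    rw [hk] at h8
    exact (C.inj h8).symm
  obtain ⟨a, rfl⟩ := (C.mem y).1 hy
  rw [h5, h7, one_mul]

variable {W : Type*} {Y : Type u} [Group W] [Group Y] {cs : CoxeterSystem CoxeterMatrix.F₄ W}
  {A : Fin 4 → Fin 4 → ℤ} {h : IsCartan CoxeterMatrix.F₄ A} {T : Subgroup Y} {n : Fin 4 → Y}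
  {X : (Fin 4 → ℤ) → Subgroup Y} {F : Type*} [Field F] {x : (Fin 4 → ℤ) → F → Y} {χ : (Fin 4 → ℤ) → Y → F}

/-- **`|F|` not a square.** -/
theorem gInv3_odd [Finite W] [Finite Y] [Finite F] [CharP F 2] (R : RGD cs h 2 T n X) {β : MulAut Y}
    {σ : Equiv.Perm (Fin 4)} (hG : GG cs h T X = ⊤) (hC : H601.OddDeg.TwoC Y)
    (C : Coords cs h T n X x χ) (hA : A = AF4) (hN : Nrm R β σ) (hσ : σ 0 = 3 ∧ σ 1 = 2 ∧ σ 2 = 1 ∧ σ 3 = 0)
    (h3 : ¬ 3 ∣ Nat.card F - 1) : GInv3 β := by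
  obtain ⟨s0, s1, s2, s3⟩ := hσ
  obtain ⟨k, hk⟩ := hN.pow
  have hγ : (β * β) ^ 2 ^ k = 1 := by rw [← pow_two, ← pow_mul, mul_comm, pow_mul, hk, one_pow]
  have hX : ∀ y, (β * β) y ∈ X (sr 0) ↔ y ∈ X (sr 0) := by
    intro y
    have e1 := hN.diag.pos 3 (β y)
    have e2 := hN.diag.pos 0 y
    rw [s3] at e1
    rw [s0] at e2
    exact e1.trans e2
  have hX' : ∀ y, (β * β) y ∈ X (-sr 0) ↔ y ∈ X (-sr 0) := by
    intro y
    have e1 := hN.diag.neg 3 (β y)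
    have e2 := hN.diag.neg 0 y
    rw [s3] at e1
    rw [s0] at e2
    exact e1.trans e2
  have hβ : ∀ y ∈ MJ cs h X {0}, β (β y) = y := by
    have hle : MJ cs h X {0} ≤ (β * β).toMonoidHom.eqLocus (MonoidHom.id Y) := by
      refine RGD.Sup_le fun r hr y hy => ?_
      rcases hr.1.pos_or_neg with h1 | h1
      · have h2 : r = sr 0 := hr.1.eq_sr h1 0 fun k hk => hr.2 k hk
        rw [h2] at hy
        exact fix_of_coord (C.coord _ (isRoot_sr cs h 0)) h3 hγ (hN.fixT.mul hN.fixT) hX hy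
      · have h2 : -r = sr 0 := hr.1.neg.eq_sr (by
          intro i
          have := h1 i
          simp only [Pi.zero_apply, Pi.neg_apply] at this ⊢
          omega) 0 fun k hk => by
            rw [Pi.neg_apply, hr.2 k hk, neg_zero]
        have h4 : r = -sr 0 := by rw [← h2, neg_neg]
        rw [h4] at hy
        exact fix_of_coord (C.coord _ (isRoot_sr cs h 0).neg) h3 hγ (hN.fixT.mul hN.fixT) hX' hy
    exact fun y hy => hle hy
  have hK : σ '' (({0} : Set (Fin 4)) ∪ {3}) = {0} ∪ {3} := by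
    rw [Set.image_union, Set.image_singleton, Set.image_singleton, s0, s3, Set.union_comm]
  have hJ : σ '' ({1, 2} : Set (Fin 4)) = {1, 2} := by
    rw [Set.image_pair, s1, s2, Set.pair_comm]
  refine gInv3_of_types R hG hC hN hK hJ ⟨1, Or.inl rfl⟩ (ocs_pair R hG hN s0 s3 (by decide) (by rw [hA]; rfl)
    (by rw [hA]; rfl) (oc_node R 0 1 (by decide)) hβ hK) ?_
  rintro ⟨w, hw⟩
  obtain ⟨k, hk, e1⟩ := hw 0 (Or.inl rfl)
  obtain ⟨l, hl, e2⟩ := hw 3 (Or.inr rfl)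
  have h4 := cartan_rep e1 e2
  have h5 : k ≠ l := by
    rintro rfl
    have h5 : (sr 0 : Fin 4 → ℤ) = sr 3 := by
      have := congrArg (rep cs h w⁻¹) (e1.trans e2.symm)
      rwa [rep_inv_apply, rep_inv_apply] at this
    exact absurd (sr_injective h5) (by decide)
  rw [hA] at h4
  rcases hk with rfl | hk <;> rcases hl with rfl | hl
  · exact h5 rfl
  · rw [Set.mem_singleton_iff] at hl
    subst hl
    exact absurd h4 (by decide)
  · rw [Set.mem_singleton_iff] at hk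
    subst hk
    exact absurd h4 (by decide)
  · exact h5 (by rw [Set.mem_singleton_iff.1 hk, Set.mem_singleton_iff.1 hl])

end odd

section concrete

open Cfsg.Lie Cfsg.Agent.ChevalleyStructure Cfsg.Agent.ChevalleyStructure.RootVec Cfsg.Agent.Nodes.RGDChev
  Cfsg.Agent.KFacts.RgdChevCoord Cfsg.Agent.KFacts.ChevTwoInst Cfsg.Agent.KFacts.F4Star Cfsg.Agent.KFacts.F4Torus
  Cfsg.Agent.ChevalleyStructure.CoxeterGeomTypes
open Cfsg.Agent.Nodes.KindF (isType)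

/-- prescribed scalars of the simple roots -/
theorem exists_torus_elt {W : Type*} {Y : Type u} [Group W] [Group Y] {cs : CoxeterSystem CoxeterMatrix.F₄ W}
    {A : Fin 4 → Fin 4 → ℤ} {h : IsCartan CoxeterMatrix.F₄ A} {T : Subgroup Y} {n : Fin 4 → Y}
    {X : (Fin 4 → ℤ) → Subgroup Y} {F : Type*} [Field F] {x : (Fin 4 → ℤ) → F → Y} {χ : (Fin 4 → ℤ) → Y → F}
    {hh : Fin 4 → F → Y} (C : Coords cs h T n X x χ) (H : Coroots A T X χ hh)
    (hA : A = cartanOf chevF4 4) (u : Fin 4 → Fˣ) : ∃ t ∈ T, ∀ i, χ (sr i) t = u i := by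
  let c : Fin 4 → Fˣ := fun j => ∏ k, u k ^ iC k j
  have hm : ∀ j, hh j (c j) ∈ T := fun j => ((H.mem j _).2 ⟨_, (c j).ne_zero, rfl⟩).1
  let t : T := ⟨hh 0 (c 0), hm 0⟩ * ⟨hh 1 (c 1), hm 1⟩ * ⟨hh 2 (c 2), hm 2⟩ * ⟨hh 3 (c 3), hm 3⟩
  have hc : ∀ i j, cU C i ⟨hh j (c j), hm j⟩ = c j ^ A j i := by
    intro i j
    apply Units.ext
    rw [coe_cU, Units.val_zpow_eq_zpow_val]
    exact H.char i j _ (c j).ne_zero
  refine ⟨t, t.2, fun i => ?_⟩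
  rw [← coe_cU C i t]
  congr 1
  have h1 : cU C i t = ∏ j, c j ^ A j i := by
    rw [Fin.prod_univ_four, ← hc, ← hc, ← hc, ← hc, ← map_mul, ← map_mul, ← map_mul]
  have h2 : ∀ j, c j ^ A j i = ∏ k, u k ^ (iC k j * A j i) := by
    intro j
    change (∏ k, u k ^ iC k j) ^ A j i = _
    rw [← Finset.prod_zpow]
    exact Finset.prod_congr rfl fun k _ => (zpow_mul _ _ _).symm
  rw [h1, Finset.prod_congr rfl fun j _ => h2 j, Finset.prod_comm]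
  have h3 : ∀ k, ∏ j, u k ^ (iC k j * A j i) = u k ^ (if k = i then (1 : ℤ) else 0) := by
    intro k
    rw [← iC_mul k i, hA, Fin.sum_univ_four, Fin.prod_univ_four, zpow_add, zpow_add, zpow_add]
  rw [Finset.prod_congr rfl fun k _ => h3 k, Finset.prod_eq_single i]
  · rw [if_pos rfl, zpow_one]
  · intro k _ hk
    rw [if_neg hk, zpow_zero]
  · intro hi
    exact absurd (Finset.mem_univ i) hi

variable {K : Type u} [Field K] [Finite K] [CharP K 2] {W : Type*} [Group W]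
  (cs : CoxeterSystem CoxeterMatrix.F₄ W)

/-- **`F₄(q)`, `q` even: automorphisms interchanging the lengths.** -/
theorem gInv3_swap (hC : H601.OddDeg.TwoC ↥(chevF4.group K)) {β : MulAut ↥(chevF4.group K)}
    {σ : Equiv.Perm (Fin 4)} (hN : Nrm (rgd (K := K) isType cs 2) β σ)
    (hσ : σ 0 = 3 ∧ σ 1 = 2 ∧ σ 2 = 1 ∧ σ 3 = 0) : GInv3 β := by
  have : Fact (Nat.Prime 2) := ⟨Nat.prime_two⟩
  have hW : Finite W := finite_W isType cs
  have hA : cartanOf chevF4 4 = AF4 := Cfsg.Agent.PRankPar.CardW.cartan_F4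
  have C := coords (K := K) isType cs 2
  have H := coroots (K := K) isType cs 2
  by_cases h3 : 3 ∣ Nat.card K - 1
  · exact gInv3_even (rgd (K := K) isType cs 2) (Cfsg.Agent.KFacts.F4Aut.GG_top cs) hC C H hA
      (fun r hr t ht => Cfsg.Agent.PRankPar.Chev.ch_prod isType cs 2 r hr t ht)
      (fun s hs t ht => Cfsg.Agent.PRankPar.Chev.T_comm isType cs 2 s hs t ht) (exists_torus_elt C H rfl) hN hσ h3
  · exact gInv3_odd (rgd (K := K) isType cs 2) (Cfsg.Agent.KFacts.F4Aut.GG_top cs) hC C hA hN hσ h3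

include cs in
/-- **`F₄(q)`, `q` even: the generators of the Sylow 2-subgroups of `Inn S <τ>`.** -/
theorem D3_F4 {τ : MulAut ↥(chevF4.group K)} (hτ : TwoPow τ) (hn : ¬ IsInn τ) : D3 (AutExt τ) := by
  have : Fact (Nat.Prime 2) := ⟨Nat.prime_two⟩
  have hW : Finite W := finite_W isType cs
  have R := rgd (K := K) isType cs 2
  refine Cfsg.Agent.H151.K547.D3_of_orbits R (Cfsg.Agent.KFacts.F4Aut.GG_top cs)
    (Cfsg.Agent.S1077.center_group_eq_bot isType.inList) (J := {0, 3}) (i := 0) (j := 1) (Or.inl rfl) (by decide) ?_ hτ hn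
  intro g σ D i
  rcases Cfsg.Agent.KFacts.F4Aut.perm_F4 σ (D.matrix R) with rfl | ⟨s0, s1, s2, s3⟩
  · rfl
  · fin_cases i
    · change σ 0 ∈ ({0, 3} : Set (Fin 4)) ↔ (0 : Fin 4) ∈ ({0, 3} : Set (Fin 4))
      rw [s0]; simp
    · change σ 1 ∈ ({0, 3} : Set (Fin 4)) ↔ (1 : Fin 4) ∈ ({0, 3} : Set (Fin 4))
      rw [s1]; decide
    · change σ 2 ∈ ({0, 3} : Set (Fin 4)) ↔ (2 : Fin 4) ∈ ({0, 3} : Set (Fin 4))
      rw [s2]; decide
    · change σ 3 ∈ ({0, 3} : Set (Fin 4)) ↔ (3 : Fin 4) ∈ ({0, 3} : Set (Fin 4))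
      rw [s3]; simp

/-- **The row of `F₄(q)`, `q` even**, from the type preserving automorphisms (Theorem E). -/
theorem ext_F4 (hC : H601.OddDeg.TwoC ↥(chevF4.group K))
    (hE : ∀ β : MulAut ↥(chevF4.group K), Nrm (rgd (K := K) isType cs 2) β 1 → GInv3 β)
    {τ : MulAut ↥(chevF4.group K)} (hτ : TwoPow τ) (hn : ¬ IsInn τ) : ExtRow ↥(chevF4.group K) τ := by
  have : Fact (Nat.Prime 2) := ⟨Nat.prime_two⟩
  have hW : Finite W := finite_W isType cs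
  refine ⟨fun _ => D3_F4 cs hτ hn, fun _ => ?_⟩
  obtain ⟨g, σ, hN⟩ := exists_nrm (rgd (K := K) isType cs 2) (Cfsg.Agent.KFacts.F4Aut.GG_top cs) hτ
  apply gInv3_conj g
  rcases Cfsg.Agent.KFacts.F4Aut.perm_F4 σ hN.sym with rfl | hσ
  · exact hE _ hN
  · exact gInv3_swap cs hC hN hσ

end concrete

end Cfsg.Agent.H845.K547F
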