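import Cfsg.Agent.H307.QE.Engine
import Cfsg.Agent.H118.K547.TSer
import Cfsg.Agent.H687.FourK.RankTwo

/-!
# S4547, `q` even: `β`-fixed characters from two parabolic subgroups (helper845, task QE14)

* `exists_os_ind` : an `OS` character `ψ` of a `β`-invariant subgroup `P` of odd index gives one of `Y`, over `ψ`;
* `exists_os_quot` : a nontrivial `OS` character of `P`, trivial on `N`, if `2 ∣ |P : N|`;
* `ne_of_series` : a character over `ψ ∈ Irr(P_K)`, trivial on `Z ≤ T`, is not in the principal series of a character of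
  `T` which is nontrivial on every conjugate of `Z` under the Weyl group;
* `exists_two` : two nontrivial `OS` characters.
-/

set_option autoImplicit false
set_option linter.unusedSectionVars false

open scoped ComplexConjugate
open Cfsg

namespace Cfsg.Agent.H845.K547F

open Cfsg.Agent.OddOrderCharacters.Clifford Cfsg.Agent.Characters Cfsg.Agent.H601.K4 Cfsg.Agent.H967.K4
  Cfsg.Agent.H821.K547 Cfsg.Agent.H307.QE
open CoxeterSystem Cfsg.Agent.ChevalleyStructure.CoxeterGeom Cfsg.Agent.Tits.Roots Cfsg.Agent.Tits.Core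
  Cfsg.Agent.Tits.Exchange Cfsg.Agent.Nodes.Reps Cfsg.Agent.Nodes.BNOf Cfsg.Agent.Nodes.StabComb
  Cfsg.Agent.Nodes.Bruhat Cfsg.Agent.Nodes.OppDec Cfsg.Agent.Nodes.LeviDec Cfsg.Agent.H53.HC
  Cfsg.Agent.H246.Dl Cfsg.Agent.KFacts.RgdAut Cfsg.Agent.KFacts.RgdDiag

universe u

section gen

variable {Y : Type u} [Group Y]

theorem odd_charDegree {χ : Y → ℂ} (hχ : OddIrr χ) : ∃ d : ℕ, χ 1 = d ∧ Odd d := by
  obtain ⟨d, hd⟩ : ∃ d : ℕ, χ 1 = d := Core.isCharacter_apply_one (Core.isIrr_isCharacter hχ.1)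
  refine ⟨d, hd, ?_⟩
  have h1 : charDegree χ = d := by rw [charDegree, hd]; simp
  have h2 := hχ.2
  rw [h1] at h2
  rwa [← Nat.not_even_iff_odd, even_iff_two_dvd]

theorem ind_fix [Fintype Y] {β : MulAut Y} {P : Subgroup Y} (hP : Fix β P) {ψ : P → ℂ}
    (hψ : ∀ x : P, ψ (rAut β hP x) = ψ x) (y : Y) : indFun P ψ (β y) = indFun P ψ y := by
  rw [S0150.indFun_apply, S0150.indFun_apply]
  congr 1
  refine (Fintype.sum_equiv β.toEquiv _ _ fun x => ?_).symm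
  have e : (β.toEquiv x)⁻¹ * β y * β.toEquiv x = β (x⁻¹ * y * x) := by
    change (β x)⁻¹ * β y * β x = _
    rw [map_mul, map_mul, map_inv]
  rw [e]
  by_cases hx : x⁻¹ * y * x ∈ P
  · rw [ext_apply_mem P ψ _ hx, ext_apply_mem P ψ _ ((hP _).2 hx)]
    exact (hψ ⟨_, hx⟩).symm
  · rw [ext_apply_not_mem P ψ _ hx, ext_apply_not_mem P ψ _ (fun h => hx ((hP _).1 h))]

/-- **Characters over an `OS` character of a subgroup of odd index.** -/
theorem exists_os_ind [Finite Y] {β : MulAut Y} {k : ℕ} (hk : β ^ 2 ^ k = 1) {P : Subgroup Y} [Fintype P]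
    (hP : Fix β P) (hidx : Odd P.index) {ψ : P → ℂ} (hψ : OS (rAut β hP) ψ) :
    ∃ χ, OS β χ ∧ classInner ψ (fun t : P => χ t) ≠ 0 := by
  classical
  have : Fintype Y := Fintype.ofFinite Y
  obtain ⟨d, hd, hdo⟩ := odd_charDegree hψ.odd
  obtain ⟨χ, h1, h2⟩ := exists_os_const hk (Cfsg.Agent.S0148.result P _ (Core.isIrr_isCharacter hψ.odd.1)) (n := P.index * d) (by
    rw [Cfsg.Agent.OddOrderCharacters.IndRes.indFun_apply_one, hd]
    push_cast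
    rfl) (hidx.mul hdo) hψ.sf.ind (ind_fix hP hψ.fix)
  refine ⟨χ, h1, ?_⟩
  rwa [classInner_indFun _ _ _ (Core.isIrr_isClassFunction h1.odd.1)] at h2

theorem ne_one_of_over [Finite Y] {P : Subgroup Y} [Fintype P] {ψ : P → ℂ} (hψ : IsIrrCharacter P ψ) (h1 : ψ ≠ 1)
    {χ : Y → ℂ} (hne : classInner ψ (fun t : P => χ t) ≠ 0) : χ ≠ 1 := by
  rintro rfl
  apply hne
  exact Core.classInner_irr_ne hψ Core.isIrr_one h1

/-- the automorphism of a quotient -/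
noncomputable def qAut {G : Type u} [Group G] (φ : MulAut G) (N : Subgroup G) [N.Normal] (hN : Fix φ N) :
    MulAut (G ⧸ N) := QuotientGroup.congr N N φ (fix_iff.1 hN)

theorem qAut_mk {G : Type u} [Group G] (φ : MulAut G) (N : Subgroup G) [N.Normal] (hN : Fix φ N) (g : G) :
    qAut φ N hN (QuotientGroup.mk' N g) = QuotientGroup.mk' N (φ g) := rfl

theorem qAut_pow {G : Type u} [Group G] (φ : MulAut G) (N : Subgroup G) [N.Normal] (hN : Fix φ N) (m : ℕ) (g : G) :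
    ((qAut φ N hN) ^ m) (QuotientGroup.mk' N g) = QuotientGroup.mk' N ((φ ^ m) g) := by
  induction m generalizing g with
  | zero => rfl
  | succ m ih => rw [pow_succ, pow_succ, MulAut.mul_apply, MulAut.mul_apply, qAut_mk, ih]

theorem OS.comp_mk {G : Type u} [Group G] [Finite G] {φ : MulAut G} {N : Subgroup G} [N.Normal] (hN : Fix φ N)
    {ψ : G ⧸ N → ℂ} (hψ : OS (qAut φ N hN) ψ) : OS φ (ψ ∘ QuotientGroup.mk' N) where
  odd := by
    refine ⟨Core.isIrr_comp _ (QuotientGroup.mk'_surjective N) hψ.odd.1, ?_⟩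
    have e : charDegree (ψ ∘ QuotientGroup.mk' N) = charDegree ψ := by
      rw [charDegree, charDegree, Function.comp_apply, map_one]
    rw [e]
    exact hψ.odd.2
  sf := hψ.sf.comp _
  fix x := by
    rw [Function.comp_apply, Function.comp_apply, ← qAut_mk φ N hN, hψ.fix]

/-- **A nontrivial `OS` character of `P`, trivial on `N`.** -/
theorem exists_os_quot {G : Type u} [Group G] [Finite G] {φ : MulAut G} {k : ℕ} (hk : φ ^ 2 ^ k = 1)
    {N : Subgroup G} [N.Normal] (hN : Fix φ N) (h2 : 2 ∣ N.index) :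
    ∃ ψ, OS φ ψ ∧ ψ ≠ 1 ∧ ∀ x ∈ N, ψ x = ψ 1 := by
  obtain ⟨ψ, h3, h4⟩ := exists_os_ne_one (G := G ⧸ N) (by rwa [← Subgroup.index_eq_card]) (φ := qAut φ N hN) (k := k) (by
    ext q
    obtain ⟨g, rfl⟩ := QuotientGroup.mk'_surjective N q
    rw [qAut_pow, hk]
    rfl)
  refine ⟨ψ ∘ QuotientGroup.mk' N, OS.comp_mk hN h3, ?_, ?_⟩
  · intro h5
    apply h4
    funext q
    obtain ⟨g, rfl⟩ := QuotientGroup.mk'_surjective N q
    exact congrFun h5 g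
  · intro x hx
    rw [Function.comp_apply, Function.comp_apply, map_one]
    congr 1
    exact (QuotientGroup.eq_one_iff x).2 hx

end gen

section rgd

variable {I W : Type*} {Y : Type u} [Fintype I] [DecidableEq I] [Group W] [Group Y] {M : CoxeterMatrix I}
  {cs : CoxeterSystem M W} {A : I → I → ℤ} {h : IsCartan M A} {T : Subgroup Y} {n : I → Y}
  {X : (I → ℤ) → Subgroup Y}

local notation "UP" => RGD.Sup X (RGD.Pos cs h)

theorem conj_T (R : RGD cs h 2 T n X) {w : W} {g : Y} (hg : Rp cs R.nsys w g) {t : Y} (ht : t ∈ T) :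
    g * t * g⁻¹ ∈ T := (Subgroup.mem_normalizer_iff.1 hg.mem_normalizer t).1 ht

/-- **A character over `ψ` is not in the series of `μ`.** -/
theorem not_series [Finite W] [Finite Y] (R : RGD cs h 2 T n X) (hG : GG cs h T X = ⊤)
    [Fintype (RGD.Sup X (RGD.Pos cs h))] [Fintype T] {K : Set I} [Fintype ↥(PJ cs h T X K)] {Z : Subgroup Y}
    (hZT : Z ≤ T) {μ : ↥T →* ℂˣ}
    (hμ : ∀ (w : W) (g : Y) (hg : Rp cs R.nsys w g), ∃ (z : Y) (hz : z ∈ Z), μ ⟨g * z * g⁻¹, conj_T R hg (hZT hz)⟩ ≠ 1)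
    {ψ : ↥(PJ cs h T X K) → ℂ} (hψ : IsIrrCharacter _ ψ)
    (hψZ : ∀ (z : Y) (hz : z ∈ Z), ψ ⟨z, LJ_le_PJ (T_le_LJ (hZT hz))⟩ = ψ 1)
    {χ : Y → ℂ} (hχ : IsIrrCharacter Y χ)
    (h1 : ms (RGD.Sup X (RGD.Pos cs h)) T χ (fun t => ((μ t : ℂˣ) : ℂ)) ≠ 0)
    (h2 : classInner ψ (fun t : PJ cs h T X K => χ t) ≠ 0) : False := by
  classical
  have : Fintype Y := Fintype.ofFinite Y
  have hn := R.T_le_normalizer_U
  have hVM : ∀ x, x ∈ UP → x ∈ T → x = 1 := fun x h1 h2 => T_inf_U R h1 h2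
  obtain ⟨π, hπ⟩ := exists_proj UP T hn hVM
  have : Fintype ↥(UP ⊔ T) := Fintype.ofFinite _
  rw [ms_eq UP T hn hVM hπ] at h1
  have h1' := classInner_symm_ne (right_ne_zero_of_mul h1)
  have hl : IsIrrCharacter T (fun t => ((μ t : ℂˣ) : ℂ)) := Linear.isIrrCharacter_hom μ
  have hlc : IsCharacter _ ((fun t => ((μ t : ℂˣ) : ℂ)) ∘ π) := Core.isCharacter_comp π (Core.isIrr_isCharacter hl)
  have hmc := Core.isIrr_isCharacter hψ
  obtain ⟨x, hx⟩ := exists_tw (UP ⊔ T) (PJ cs h T X K) hlc hmc hχ h1' h2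
  obtain ⟨w, b₁, hb₁, k, hk, b₂, hb₂, e⟩ := (mem_GG R).1 (show x ∈ GG cs h T X by rw [hG]; exact Subgroup.mem_top x)
  have hB : RGD.B cs h T X ≤ UP ⊔ T := by
    rw [sup_comm]
    exact le_rfl
  rw [e, tw_mul _ _ (Core.isCharacter_isClassFunction hlc) (Core.isCharacter_isClassFunction hmc)
    (hB hb₁) (B_le_PJ hb₂)] at hx
  apply hx
  let L : Subgroup Y := Z.map (MulAut.conj k).toMonoidHom
  have : Fintype L := Fintype.ofFinite _
  have hLT : ∀ l ∈ L, l ∈ T := by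
    rintro _ ⟨z, hz, rfl⟩
    exact conj_T R hk (hZT hz)
  have hLZ : ∀ l ∈ L, k⁻¹ * l * k ∈ Z := by
    rintro _ ⟨z, hz, rfl⟩
    have e1 : k⁻¹ * ((MulAut.conj k).toMonoidHom z) * k = z := by
      change k⁻¹ * (k * z * k⁻¹) * k = z
      group
    rw [e1]
    exact hz
  refine tw_eq_zero_of_sub _ _ hlc hmc k L (fun l hl => le_sup_right (a := UP) (hLT l hl))
    (fun l hl => LJ_le_PJ (T_le_LJ (hZT (hLZ l hl)))) ?_
  have h3 : ∀ (s : Y) (hs : s ∈ T), π ⟨s, le_sup_right (a := UP) hs⟩ = ⟨s, hs⟩ := by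
    intro s hs
    have h4 := hπ 1 (one_mem UP) ⟨s, hs⟩
    rw [← h4]
    congr 1
    exact Subtype.ext (one_mul s).symm
  let f : L →* ℂ := (Units.coeHom ℂ).comp (μ.comp (Subgroup.inclusion hLT))
  have h5 : ∀ l : L, ((fun t => ((μ t : ℂˣ) : ℂ)) ∘ π) ⟨l, le_sup_right (a := UP) (hLT l l.2)⟩ *
      conj (ψ ⟨k⁻¹ * l * k, LJ_le_PJ (T_le_LJ (hZT (hLZ l l.2)))⟩) = f l * conj (ψ 1) := by
    intro l
    rw [hψZ _ (hLZ l l.2), Function.comp_apply, h3 l (hLT l l.2)]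
    rfl
  rw [Finset.sum_congr rfl fun l _ => h5 l, ← Finset.sum_mul, sum_hom_units_eq_zero f, zero_mul]
  intro h6
  obtain ⟨z, hz, hne⟩ := hμ w k hk
  apply hne
  have h7 := DFunLike.congr_fun h6 (⟨k * z * k⁻¹, ⟨z, hz, rfl⟩⟩ : L)
  exact Units.ext h7

theorem mem_normalizer_sup {V Z : Subgroup Y} {g : Y} (h1 : g ∈ Subgroup.normalizer (V : Set Y))
    (h2 : g ∈ Subgroup.normalizer (Z : Set Y)) : g ∈ Subgroup.normalizer ((V ⊔ Z : Subgroup Y) : Set Y) := by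
  have key : ∀ g : Y, g ∈ Subgroup.normalizer (V : Set Y) → g ∈ Subgroup.normalizer (Z : Set Y) →
      ∀ x ∈ V ⊔ Z, g * x * g⁻¹ ∈ V ⊔ Z := by
    intro g h1 h2
    have hle : V ⊔ Z ≤ (V ⊔ Z).comap (MulAut.conj g).toMonoidHom := by
      refine sup_le (fun x hx => ?_) (fun x hx => ?_)
      · exact le_sup_left (a := V) (b := Z) ((Subgroup.mem_normalizer_iff.1 h1 x).1 hx)
      · exact le_sup_right (a := V) (b := Z) ((Subgroup.mem_normalizer_iff.1 h2 x).1 hx)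
    exact hle
  rw [Subgroup.mem_normalizer_iff]
  intro x
  refine ⟨key g h1 h2 x, fun hx => ?_⟩
  have h3 := key g⁻¹ (inv_mem h1) (inv_mem h2) _ hx
  have e : g⁻¹ * (g * x * g⁻¹) * g⁻¹⁻¹ = x := by group
  rwa [e] at h3

theorem mem_normalizer_of_comm {Z : Subgroup Y} {g : Y} (hg : ∀ z ∈ Z, z * g = g * z) :
    g ∈ Subgroup.normalizer (Z : Set Y) := by
  have key : ∀ g : Y, (∀ z ∈ Z, z * g = g * z) → ∀ z ∈ Z, g * z * g⁻¹ ∈ Z := by
    intro g hg z hz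
    rw [← hg z hz, mul_inv_cancel_right]
    exact hz
  rw [Subgroup.mem_normalizer_iff]
  intro z
  refine ⟨key g hg z, fun hz => ?_⟩
  have h3 := key g⁻¹ (fun z hz => by
    have := hg z hz
    calc z * g⁻¹ = g⁻¹ * (g * z) * g⁻¹ := by group
      _ = g⁻¹ * (z * g) * g⁻¹ := by rw [this]
      _ = g⁻¹ * z := by group) _ hz
  have e : g⁻¹ * (g * z * g⁻¹) * g⁻¹⁻¹ = z := by group
  rwa [e] at h3

/-- **A nontrivial `OS` character of `P_K`, trivial on `V_K` and on the central subgroup `Z`.** -/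
theorem exists_psi_K [Finite W] [Finite Y] (R : RGD cs h 2 T n X) (hG : GG cs h T X = ⊤) {β : MulAut Y}
    {σ : Equiv.Perm I} (hN : Nrm R β σ) {K : Set I} (hK : σ '' K = K) {i : I} (hi : i ∈ K) {Z : Subgroup Y}
    (hZT : Z ≤ T) (hZ : Fix β Z) (hZc : ∀ z ∈ Z, ∀ t ∈ T, z * t = t * z)
    (hZM : ∀ z ∈ Z, ∀ m ∈ MJ cs h X K, z * m = m * z) :
    ∃ ψ : ↥(PJ cs h T X K) → ℂ, OS (rAut β (hN.fixPJ hK)) ψ ∧ ψ ≠ 1 ∧
      (∀ (v : Y) (hv : v ∈ VJ cs h X K), ψ ⟨v, VJ_le_PJ hv⟩ = ψ 1) ∧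
      ∀ (z : Y) (hz : z ∈ Z), ψ ⟨z, LJ_le_PJ (T_le_LJ (hZT hz))⟩ = ψ 1 := by
  obtain ⟨k, hk⟩ := hN.pow
  have hVP : VJ cs h X K ≤ PJ cs h T X K := VJ_le_PJ
  have hZP : Z ≤ PJ cs h T X K := fun z hz => LJ_le_PJ (T_le_LJ (hZT hz))
  have hNP : VJ cs h X K ⊔ Z ≤ PJ cs h T X K := sup_le hVP hZP
  have hZn : LJ cs h T X K ≤ Subgroup.normalizer (Z : Set Y) :=
    sup_le (fun t ht => mem_normalizer_of_comm fun z hz => hZc z hz t ht)
      (fun m hm => mem_normalizer_of_comm fun z hz => hZM z hz m hm)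
  have hn : PJ cs h T X K ≤ Subgroup.normalizer ((VJ cs h X K ⊔ Z : Subgroup Y) : Set Y) :=
    sup_le (fun g hg => mem_normalizer_sup (LJ_le_normalizer_VJ R K hg) (hZn hg))
      (le_trans le_sup_left Subgroup.le_normalizer)
  have hnor : ((VJ cs h X K ⊔ Z).subgroupOf (PJ cs h T X K)).Normal :=
    (Subgroup.normal_subgroupOf_iff_le_normalizer hNP).2 hn
  have hV := hN.fixVJ hK
  have hfix : Fix β (VJ cs h X K ⊔ Z) := by
    rw [fix_iff, Subgroup.map_sup, fix_iff.1 hV, fix_iff.1 hZ]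
  have hfix' : Fix (rAut β (hN.fixPJ hK)) ((VJ cs h X K ⊔ Z).subgroupOf (PJ cs h T X K)) := by
    intro x
    rw [Subgroup.mem_subgroupOf, Subgroup.mem_subgroupOf, rAut_coe]
    exact hfix x
  have h2 : 2 ∣ ((VJ cs h X K ⊔ Z).subgroupOf (PJ cs h T X K)).index := by
    by_contra hodd
    obtain ⟨u, hu, hu1⟩ := Cfsg.Agent.Nodes.Bruhat.exists_ne_one R i
    have hroot : sr i ∈ RootsJ cs h K := PosJ_subset K (sr_mem_PosJ hi)
    have huL : u ∈ LJ cs h T X K := X_le_LJ hroot hu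
    have huU : u ∈ RGD.Sup X (RGD.Pos cs h) := RGD.le_Sup (S := RGD.Pos cs h) ⟨isRoot_sr cs h i, sr_nonneg i⟩ hu
    obtain ⟨j, hj⟩ := IsPGroup.iff_orderOf.1 R.isPGroup_Upos ⟨u, huU⟩
    rw [Subgroup.orderOf_mk] at hj
    -- the order of `u` modulo `N`
    have hmem : (⟨u, LJ_le_PJ huL⟩ : ↥(PJ cs h T X K)) ∈ (VJ cs h X K ⊔ Z).subgroupOf (PJ cs h T X K) := by
      rw [← QuotientGroup.eq_one_iff]
      have h3 : ((⟨u, LJ_le_PJ huL⟩ : ↥(PJ cs h T X K)) : ↥(PJ cs h T X K) ⧸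
          (VJ cs h X K ⊔ Z).subgroupOf (PJ cs h T X K)) ^ 2 ^ j = 1 := by
        rw [← QuotientGroup.mk_pow]
        have e : (⟨u, LJ_le_PJ huL⟩ : ↥(PJ cs h T X K)) ^ 2 ^ j = 1 := by
          apply Subtype.ext
          rw [Subgroup.coe_pow, ← hj]
          exact pow_orderOf_eq_one u
        rw [e]
        rfl
      have h4 := orderOf_dvd_of_pow_eq_one h3
      have h5 := orderOf_dvd_natCard ((⟨u, LJ_le_PJ huL⟩ : ↥(PJ cs h T X K)) : ↥(PJ cs h T X K) ⧸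
          (VJ cs h X K ⊔ Z).subgroupOf (PJ cs h T X K))
      rw [← Subgroup.index_eq_card] at h5
      have h6 : (2 ^ j).Coprime ((VJ cs h X K ⊔ Z).subgroupOf (PJ cs h T X K)).index :=
        Nat.Coprime.pow_left _ ((Nat.Prime.coprime_iff_not_dvd Nat.prime_two).2 hodd)
      exact orderOf_eq_one_iff.1 (Nat.dvd_one.1 (h6 ▸ Nat.dvd_gcd h4 h5))
    rw [Subgroup.mem_subgroupOf] at hmem
    obtain ⟨v, hv, z, hz, e⟩ := mem_sup (VJ cs h X K) Z
      (fun z hz => LJ_le_normalizer_VJ R K (T_le_LJ (hZT hz))) hmem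
    have e' : u = v * z := e
    have hzU : z ∈ RGD.Sup X (RGD.Pos cs h) := by
      have : z = v⁻¹ * u := by rw [e']; group
      rw [this]
      exact mul_mem (inv_mem (VJ_le_U K hv)) huU
    have hz1 := T_inf_U R hzU (hZT hz)
    rw [hz1, mul_one] at e'
    rw [e'] at huL hu1
    exact hu1 (eq_one_of_mem_LJ_of_mem_VJ R huL hv)
  obtain ⟨ψ, h3, h4, h5⟩ := exists_os_quot (rAut_pow_eq_one (hN.fixPJ hK) hk) hfix' h2
  exact ⟨ψ, h3, h4, fun v hv => h5 _ (by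
    rw [Subgroup.mem_subgroupOf]; exact le_sup_left (a := VJ cs h X K) (b := Z) hv), fun z hz => h5 _ (by
    rw [Subgroup.mem_subgroupOf]; exact le_sup_right (a := VJ cs h X K) (b := Z) hz)⟩

theorem odd_index_PJ [Finite W] [Finite Y] (R : RGD cs h 2 T n X) (hG : GG cs h T X = ⊤) (K : Set I) :
    Odd (PJ cs h T X K).index :=
  odd_index_of_le R hG fun _ hx => B_le_PJ (RGD.U_le_B hx)

/-- **Two nontrivial `β`-fixed characters, from a series and from `P_K`.** -/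
theorem exists_two_of_series [Finite W] [Finite Y] (R : RGD cs h 2 T n X) (hG : GG cs h T X = ⊤) {β : MulAut Y}
    {σ : Equiv.Perm I} (hN : Nrm R β σ) {K : Set I} (hK : σ '' K = K) {i : I} (hi : i ∈ K) {Z : Subgroup Y}
    (hZT : Z ≤ T) (hZ : Fix β Z) (hZc : ∀ z ∈ Z, ∀ t ∈ T, z * t = t * z)
    (hZM : ∀ z ∈ Z, ∀ m ∈ MJ cs h X K, z * m = m * z) {μ : ↥T →* ℂˣ}
    (hμ : ∀ (w : W) (g : Y) (hg : Rp cs R.nsys w g), ∃ (z : Y) (hz : z ∈ Z), μ ⟨g * z * g⁻¹, conj_T R hg (hZT hz)⟩ ≠ 1)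
    {w : W} {g : Y} (hg : Rp cs R.nsys w g) (hgT : ∀ t ∈ T, g⁻¹ * t * g ∈ T)
    (he : ∀ (t : Y) (ht : t ∈ T), μ ⟨β t, (hN.fixT t).2 ht⟩ = μ ⟨g⁻¹ * t * g, hgT t ht⟩) :
    ∃ χ₁ χ₂ : Y → ℂ, OS β χ₁ ∧ OS β χ₂ ∧ χ₁ ≠ 1 ∧ χ₂ ≠ 1 ∧ χ₁ ≠ χ₂ := by
  classical
  have : Fintype Y := Fintype.ofFinite Y
  have : Fintype (RGD.Sup X (RGD.Pos cs h)) := Fintype.ofFinite _
  have : Fintype T := Fintype.ofFinite _
  have : Fintype (PJ cs h T X K) := Fintype.ofFinite _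
  obtain ⟨k, hk⟩ := hN.pow
  obtain ⟨ψ, h1, h2, -, h4⟩ := exists_psi_K R hG hN hK hi hZT hZ hZc hZM
  obtain ⟨χ₂, h5, h6⟩ := exists_os_ind hk (hN.fixPJ hK) (odd_index_PJ R hG K) h1
  obtain ⟨χ₁, h7, h8⟩ := Cfsg.Agent.H118.K547.exists_os_lam hN hG (Linear.isIrrCharacter_hom μ) (x := g) ⟨w, hg⟩ (by
    funext t
    exact congrArg (fun z : ℂˣ => (z : ℂ)) (he t t.2))
  refine ⟨χ₁, χ₂, h7, h5, ?_, ne_one_of_over h1.odd.1 h2 h6, ?_⟩
  · rintro rfl
    refine not_series R hG (K := K) hZT hμ Core.isIrr_one (fun _ _ => rfl) h7.odd.1 h8 ?_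
    have e : (fun t : ↥(PJ cs h T X K) => (1 : Y → ℂ) t) = 1 := rfl
    rw [e, Core.classInner_irr_self Core.isIrr_one]
    exact one_ne_zero
  · rintro rfl
    exact not_series R hG (K := K) hZT hμ h1.odd.1 h4 h7.odd.1 h8 h6

end rgd

end Cfsg.Agent.H845.K547F
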