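import Cfsg.Agent.H845.K547F.FFour
import Cfsg.Agent.H42.K547.EvenDefs
import Cfsg.Agent.H742.TwoC
import Cfsg.Agent.S1054

/-!
# S4547: the field `f4_swap` of `H42.K547.Even.EvenSmall` (helper845)
-/

set_option autoImplicit false

open Cfsg

namespace Cfsg.Agent.H845.K547F

open Cfsg.Agent.H307.QE Cfsg.Agent.H821.K547 Cfsg.Agent.H42.K547.Even

/-- `TwoC` for `F₄(q)`, `q` even -/
theorem twoC_F4 (F : Type) [Field F] [Finite F] [CharP F 2] : H601.OddDeg.TwoC ↥(Lie.chevF4.group F) := by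
  have : Fintype F := Fintype.ofFinite F
  have hs : IsSimpleGroup ↥(Lie.chevF4.group F) := (S1054.result Lie.chevF4 (by simp)).1
  refine H742.TwoC.twoC_charTwo ?_
  refine Or.inr (Or.inr (Or.inr (Or.inr (Or.inr (Or.inr (Or.inl ?_))))))
  exact ⟨F, inferInstance, inferInstance, inferInstance, Or.inr (Or.inl ⟨MulEquiv.refl _⟩)⟩

/-- **The field `f4_swap`.** -/
theorem f4_swap {F : Type} [Field F] [Fintype F] [CharP F 2] {β : MulAut ↥(Lie.chevF4.group F)}
    {σ : Equiv.Perm (Fin 4)} (hN : Nrm (rF4 F) β σ) (hσ : σ ≠ 1) : GInv3 β :=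
  gInv3_swap CoxeterMatrix.F₄.toCoxeterSystem (twoC_F4 F) hN
    ((Cfsg.Agent.KFacts.F4Aut.perm_F4 σ hN.sym).resolve_left hσ)

end Cfsg.Agent.H845.K547F
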